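import Cfsg.Agent.H341.Rel.NonAb
import Cfsg.Agent.H341.ThreeList

/-!
# `PSL_n(q)`: abelian Sylow subgroups for the primes of the multiplier (helper341, for S4985, S4992)
-/

set_option autoImplicit false

namespace Cfsg.Agent.H341.Rel

open Matrix Cfsg.Agent.H726.Rel

variable {F : Type} [Field F] [Fintype F]

theorem exists_order {r : ℕ} (hr : r ∣ Fintype.card F - 1) : ∃ w : F, orderOf w = r := by
  classical
  obtain ⟨g, hg⟩ := IsCyclic.exists_generator (α := Fˣ)
  have h1 : orderOf g = Fintype.card F - 1 := by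
    rw [orderOf_eq_card_of_forall_mem_zpowers hg, Nat.card_eq_fintype_card, Fintype.card_units]
  obtain ⟨m, hm⟩ := hr
  have hpos : 0 < Fintype.card F - 1 := by
    have := Fintype.one_lt_card (α := F)
    omega
  have hr0 : 0 < r := Nat.pos_of_ne_zero (by rintro rfl; rw [zero_mul] at hm; omega)
  have hm0 : 0 < m := Nat.pos_of_ne_zero (by rintro rfl; rw [mul_zero] at hm; omega)
  refine ⟨((g ^ m : Fˣ) : F), ?_⟩
  rw [orderOf_units, orderOf_pow, h1, hm, Nat.gcd_eq_right (Dvd.intro_left r rfl), Nat.mul_div_cancel _ hm0]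

/-- the Sylow 3-subgroup has order at most nine -/
theorem three_le {S : Type*} [Group S] [Finite S] (h : ¬ 27 ∣ Nat.card S) : 3 ^ (Nat.card S).factorization 3 ≤ 9 := by
  have h0 : Nat.card S ≠ 0 := Nat.card_pos.ne'
  by_contra hc
  have h3 : 3 ≤ (Nat.card S).factorization 3 := by
    by_contra h4
    have h5 : (Nat.card S).factorization 3 ≤ 2 := by omega
    have := Nat.pow_le_pow_right (show 0 < 3 by norm_num) h5
    omega
  exact h ((show 27 ∣ 3 ^ (Nat.card S).factorization 3 from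
    (show (27 : ℕ) = 3 ^ 3 by norm_num) ▸ pow_dvd_pow 3 h3).trans (Nat.ordProj_dvd _ _))

theorem not_ab_psl {n p k : ℕ} (hn3 : 3 ≤ n) (hp : p.Prime) (hp2 : p ≠ 2) (hpn : p ≤ n) {w : F} (hw : w ^ (p ^ k) = 1)
    (hw1 : w ≠ 1) (hn : 4 ≤ n ∨ w ^ 3 ≠ 1) : ¬ AbSylow p (ProjectiveSpecialLinearGroup (Fin n) F) := by
  refine not_ab_quot (K := SpecialLinearGroup (Fin n) F) (slToMat n F) ?_ ?_ (w := w) ?_ hn3 hp hp2 hpn hw hw1 hn
  · intro a b h
    exact Subtype.ext h
  · intro σ hσ
    exact ⟨⟨σ.permMatrix F, by rw [Matrix.det_permutation, hσ]; simp⟩, rfl⟩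
  · intro v _ hv
    exact ⟨⟨diagonal v, by rw [det_diagonal, hv]⟩, rfl⟩

theorem card_psl3 : Nat.gcd 3 (Fintype.card F - 1) * Nat.card (ProjectiveSpecialLinearGroup (Fin 3) F) =
    Fintype.card F ^ 3 * ((Fintype.card F ^ 2 - 1) * (Fintype.card F ^ 3 - 1)) := by
  have h := ThreeList.card_psl (F := F) (n := 3) (by norm_num)
  rw [show 3 - 1 = 2 by rfl, Finset.prod_range_succ, Finset.prod_range_one] at h
  norm_num at h
  exact h

theorem not27 (h9 : Fintype.card F % 9 = 4 ∨ Fintype.card F % 9 = 7) :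
    ¬ 27 ∣ Nat.card (ProjectiveSpecialLinearGroup (Fin 3) F) := by
  intro h
  have hc := card_psl3 (F := F)
  have hq : 1 < Fintype.card F := Fintype.one_lt_card
  set q := Fintype.card F with hqd
  have hg : Nat.gcd 3 (q - 1) = 3 := Nat.gcd_eq_left (by omega)
  rw [hg] at hc
  have h81 : 81 ∣ q ^ 3 * ((q ^ 2 - 1) * (q ^ 3 - 1)) := by
    rw [← hc]
    exact mul_dvd_mul (show 3 ∣ 3 by norm_num) h
  have h1 : ((q ^ 3 * ((q ^ 2 - 1) * (q ^ 3 - 1)) : ℕ) : ZMod 81) = 0 := (ZMod.natCast_eq_zero_iff _ _).2 h81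
  rw [Nat.cast_mul, Nat.cast_mul, Nat.cast_sub (Nat.one_le_pow _ _ (by omega)), Nat.cast_sub (Nat.one_le_pow _ _ (by omega)),
    Nat.cast_pow, Nat.cast_pow, Nat.cast_one] at h1
  have h2 : ∀ x : ZMod 81, (x.val % 9 = 4 ∨ x.val % 9 = 7) → x ^ 3 * ((x ^ 2 - 1) * (x ^ 3 - 1)) ≠ 0 := by decide
  refine h2 (q : ZMod 81) ?_ h1
  rw [ZMod.val_natCast, Nat.mod_mod_of_dvd _ (by norm_num : 9 ∣ 81)]
  exact h9

/-- the regular unipotent element -/
def J (F : Type) [Field F] : SpecialLinearGroup (Fin 3) F := ⟨!![1, 1, 0; 0, 1, 1; 0, 0, 1], by simp [det_fin_three]⟩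

theorem J_val : (J F).1 = !![1, 1, 0; 0, 1, 1; 0, 0, 1] := rfl

theorem cent_J (h3 : (3 : F) ≠ 0) {g : SpecialLinearGroup (Fin 3) F}
    (h : (QuotientGroup.mk g : ProjectiveSpecialLinearGroup (Fin 3) F) * QuotientGroup.mk (J F) =
      QuotientGroup.mk (J F) * QuotientGroup.mk g) :
    g.1 = !![g.1 0 0, g.1 0 1, g.1 0 2; 0, g.1 0 0, g.1 0 1; 0, 0, g.1 0 0] := by
  have h1 : (g * J F)⁻¹ * (J F * g) ∈ Subgroup.center (SpecialLinearGroup (Fin 3) F) := by
    rw [← QuotientGroup.eq]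
    exact h
  rw [Matrix.SpecialLinearGroup.mem_center_iff] at h1
  obtain ⟨r, hr, hr'⟩ := h1
  -- J g = g J * r
  have h2 : (J F).1 * g.1 = g.1 * (J F).1 * (scalar (Fin 3) r) := by
    rw [hr']
    have : J F * g = g * J F * ((g * J F)⁻¹ * (J F * g)) := by group
    exact congrArg Subtype.val this
  have hs : ∀ A : Matrix (Fin 3) (Fin 3) F, A * scalar (Fin 3) r = r • A := by
    intro A
    ext i j
    simp [mul_comm]
  rw [hs] at h2
  -- the trace: J = r • g J g⁻¹
  have h4 : r = 1 := by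
    have h5 : (J F).1 = r • (g.1 * (J F).1 * (g⁻¹).1) := by
      have h6 : g.1 * (g⁻¹).1 = 1 := congrArg Subtype.val (mul_inv_cancel g)
      rw [← Matrix.smul_mul, ← h2, Matrix.mul_assoc, h6, Matrix.mul_one]
    have h6 : trace (J F).1 = r * trace (J F).1 := by
      conv_lhs => rw [h5]
      rw [trace_smul, smul_eq_mul, trace_mul_comm, ← Matrix.mul_assoc]
      have h7 : (g⁻¹).1 * g.1 = 1 := congrArg Subtype.val (inv_mul_cancel g)
      rw [h7, Matrix.one_mul]
    have h7 : trace (J F).1 = 3 := by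
      rw [J_val, trace_fin_three]
      simp
      norm_num
    rw [h7] at h6
    have h8 : (r - 1) * 3 = 0 := by linear_combination -h6
    exact sub_eq_zero.1 ((mul_eq_zero.1 h8).resolve_right h3)
  rw [h4, one_smul, J_val] at h2
  have e : ∀ i j, ((!![1, 1, 0; 0, 1, 1; 0, 0, 1] : Matrix (Fin 3) (Fin 3) F) * g.1) i j =
      (g.1 * (!![1, 1, 0; 0, 1, 1; 0, 0, 1] : Matrix (Fin 3) (Fin 3) F)) i j :=
    fun i j => congrFun (congrFun h2 i) j
  simp only [Matrix.mul_apply, Fin.sum_univ_three] at e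
  have e00 : g.1 1 0 = 0 := by simpa using e 0 0
  have e01 : g.1 1 1 = g.1 0 0 := by
    have := e 0 1
    simp at this
    linear_combination this
  have e02 : g.1 1 2 = g.1 0 1 := by
    have := e 0 2
    simp at this
    linear_combination this
  have e10 : g.1 2 0 = 0 := by
    have := e 1 0
    simp at this
    linear_combination this
  have e11 : g.1 2 1 = 0 := by
    have := e 1 1
    simp at this
    linear_combination this + e00
  have e12 : g.1 2 2 = g.1 0 0 := by
    have := e 1 2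
    simp at this
    linear_combination this + e01
  ext i j
  fin_cases i <;> fin_cases j
  · rfl
  · rfl
  · rfl
  · exact e00
  · exact e01
  · exact e02
  · exact e10
  · exact e11
  · exact e12

theorem big_psl3 (h9 : Fintype.card F % 9 = 4 ∨ Fintype.card F % 9 = 7) :
    BigClass 3 (ProjectiveSpecialLinearGroup (Fin 3) F) := by
  classical
  have hq : 1 < Fintype.card F := Fintype.one_lt_card
  obtain ⟨r, hr⟩ := CharP.exists F
  have hrp : r.Prime := CharP.char_is_prime F r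
  have : Fact r.Prime := ⟨hrp⟩
  have hr3 : r ≠ 3 := by
    rintro rfl
    obtain ⟨m, -, hm⟩ := FiniteField.card F 3
    have : 3 ∣ Fintype.card F := by rw [hm]; exact dvd_pow_self 3 m.ne_zero
    omega
  have h3 : (3 : F) ≠ 0 := by
    intro h
    have h1 : ((3 : ℕ) : F) = 0 := by exact_mod_cast h
    rw [CharP.cast_eq_zero_iff F r] at h1
    exact hr3 ((Nat.prime_dvd_prime_iff_eq hrp Nat.prime_three).1 h1)
  have hx1 : (QuotientGroup.mk (J F) : ProjectiveSpecialLinearGroup (Fin 3) F) ≠ 1 := by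
    intro h
    rw [QuotientGroup.eq_one_iff, Matrix.SpecialLinearGroup.mem_center_iff] at h
    obtain ⟨s, -, hs⟩ := h
    have h1 := congrFun (congrFun hs 0) 1
    rw [J_val] at h1
    simp at h1
  -- the order
  have hJ : (J F) ^ (r ^ 2) = 1 := by
    apply Subtype.ext
    show (J F).1 ^ (r ^ 2) = 1
    set N : Matrix (Fin 3) (Fin 3) F := !![0, 1, 0; 0, 0, 1; 0, 0, 0] with hN
    have h1 : (J F).1 = 1 + N := by
      rw [J_val, hN]
      ext i j
      fin_cases i <;> fin_cases j <;> simp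
    have h2 : N ^ 3 = 0 := by
      rw [pow_succ, pow_two, hN]
      ext i j
      fin_cases i <;> fin_cases j <;> simp [Matrix.mul_apply, Fin.sum_univ_three]
    have h4 : N ^ (r ^ 2) = 0 := by
      have h5 : 3 ≤ r ^ 2 := by
        have := Nat.pow_le_pow_left hrp.two_le 2
        omega
      obtain ⟨m, hm⟩ := Nat.exists_eq_add_of_le h5
      rw [hm, pow_add, h2, zero_mul]
    rw [h1, add_pow_char_pow_of_commute r 2 (Commute.one_left N), one_pow, h4, add_zero]
  have hxo : ∃ k, orderOf (QuotientGroup.mk (J F) : ProjectiveSpecialLinearGroup (Fin 3) F) = r ^ k := by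
    have h1 : (QuotientGroup.mk (J F) : ProjectiveSpecialLinearGroup (Fin 3) F) ^ (r ^ 2) = 1 := by
      rw [← QuotientGroup.mk_pow, hJ]
      rfl
    obtain ⟨k, -, hk⟩ := (Nat.dvd_prime_pow hrp).1 (orderOf_dvd_of_pow_eq_one h1)
    exact ⟨k, hk⟩
  obtain ⟨k, hk⟩ := hxo
  -- the centralizer
  have hcard : Nat.card ↥(Subgroup.centralizer ({(QuotientGroup.mk (J F) :
      ProjectiveSpecialLinearGroup (Fin 3) F)} : Set (ProjectiveSpecialLinearGroup (Fin 3) F))) ≤ Fintype.card F ^ 3 := by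
    have h1 : Nat.card (F × F × F) = Fintype.card F ^ 3 := by
      rw [Nat.card_eq_fintype_card, Fintype.card_prod, Fintype.card_prod]
      ring
    rw [← h1]
    apply Nat.card_le_card_of_injective (fun y => (((Quotient.out y.1).1 0 0 : F), ((Quotient.out y.1).1 0 1 : F),
      ((Quotient.out y.1).1 0 2 : F)))
    intro y y' h
    have hy : ∀ y : ↥(Subgroup.centralizer ({(QuotientGroup.mk (J F) : ProjectiveSpecialLinearGroup (Fin 3) F)} :
        Set (ProjectiveSpecialLinearGroup (Fin 3) F))), (Quotient.out y.1).1 =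
        !![(Quotient.out y.1).1 0 0, (Quotient.out y.1).1 0 1, (Quotient.out y.1).1 0 2; 0, (Quotient.out y.1).1 0 0,
          (Quotient.out y.1).1 0 1; 0, 0, (Quotient.out y.1).1 0 0] := by
      intro y
      apply cent_J h3
      have h2 : (QuotientGroup.mk (Quotient.out y.1) : ProjectiveSpecialLinearGroup (Fin 3) F) = y.1 :=
        Quotient.out_eq y.1
      rw [h2]
      exact Subgroup.mem_centralizer_singleton_iff.1 y.2
    simp only [Prod.mk.injEq] at h
    obtain ⟨ha, hb, hc⟩ := h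
    have h2 : Quotient.out y.1 = Quotient.out y'.1 := by
      apply Subtype.ext
      rw [hy y, hy y', ha, hb, hc]
    have h5 : (QuotientGroup.mk (Quotient.out y.1) : ProjectiveSpecialLinearGroup (Fin 3) F) = y.1 := Quotient.out_eq y.1
    have h6 : (QuotientGroup.mk (Quotient.out y'.1) : ProjectiveSpecialLinearGroup (Fin 3) F) = y'.1 :=
      Quotient.out_eq y'.1
    apply Subtype.ext
    rw [← h5, ← h6, h2]
  refine BigClass.mk' hrp hr3 hx1 hk (three_le (not27 h9)) hcard le_rfl ?_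
  have hc := card_psl3 (F := F)
  set q := Fintype.card F with hqd
  have hg : Nat.gcd 3 (q - 1) = 3 := Nat.gcd_eq_left (by omega)
  rw [hg] at hc
  have hq4 : 4 ≤ q := by omega
  have h1 : 15 ≤ q ^ 2 - 1 := by
    have := Nat.pow_le_pow_left hq4 2
    omega
  have h2 : 63 ≤ q ^ 3 - 1 := by
    have := Nat.pow_le_pow_left hq4 3
    omega
  have h4 : 15 * 63 ≤ (q ^ 2 - 1) * (q ^ 3 - 1) := Nat.mul_le_mul h1 h2
  have h5 : 0 < q ^ 3 := pow_pos (by omega) 3
  have h6 : q ^ 3 * (15 * 63) ≤ 3 * Nat.card (ProjectiveSpecialLinearGroup (Fin 3) F) := by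
    rw [hc]
    exact Nat.mul_le_mul_left _ h4
  omega

theorem psl_row {n : ℕ} (hn : 3 ≤ n) :
    Cfsg.Agent.H726.Rel.OddRow (Matrix.ProjectiveSpecialLinearGroup (Fin n) F) (Nat.gcd n (Fintype.card F - 1)) := by
  intro p hp hp2 hpm hab
  have hpn : p ∣ n := hpm.trans (Nat.gcd_dvd_left _ _)
  have hpq : p ∣ Fintype.card F - 1 := hpm.trans (Nat.gcd_dvd_right _ _)
  have hle : p ≤ n := Nat.le_of_dvd (by omega) hpn
  obtain ⟨w, hw⟩ := exists_order hpq
  have hw1 : w ≠ 1 := by
    rintro rfl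
    rw [orderOf_one] at hw
    exact hp.one_lt.ne hw
  have hn3 : n = 3 := by
    by_contra hne
    exact not_ab_psl (k := 1) hn hp hp2 hle (by rw [pow_one, ← hw]; exact pow_orderOf_eq_one w) hw1 (Or.inl (by omega)) hab
  subst hn3
  have hp3 : p = 3 := (Nat.prime_dvd_prime_iff_eq hp Nat.prime_three).1 hpn
  subst hp3
  refine ⟨rfl, big_psl3 ?_⟩
  have h9 : ¬ 9 ∣ Fintype.card F - 1 := by
    intro h9
    obtain ⟨w, hw⟩ := exists_order h9
    have hw1 : w ≠ 1 := by
      rintro rfl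
      rw [orderOf_one] at hw
      omega
    refine not_ab_psl (k := 2) hn hp hp2 hle (w := w) (by
      rw [show 3 ^ 2 = 9 by norm_num, ← hw]
      exact pow_orderOf_eq_one w) hw1 (Or.inr ?_) hab
    intro h
    have := orderOf_dvd_of_pow_eq_one h
    rw [hw] at this
    exact absurd (Nat.le_of_dvd (by norm_num) this) (by norm_num)
  have hq := Fintype.one_lt_card (α := F)
  omega

end Cfsg.Agent.H341.Rel
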