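import Cfsg.Agent.H341.Rel.PslRow
import Cfsg.Agent.LieClassical.HermSiegel

/-!
# `PSU_n(q)`: abelian Sylow subgroups for the primes of the multiplier (helper341, for S4985, S4992)
-/

set_option autoImplicit false

namespace Cfsg.Agent.H341.Rel

open Matrix Cfsg.Agent.H726.Rel Cfsg Cfsg.Agent.LieClassical.SUBasic Cfsg.Agent.LieClassical.HermSiegel

variable {F : Type} [Field F]

theorem not_ab_psu {n q p k : ℕ} (hn3 : 3 ≤ n) (hp : p.Prime) (hp2 : p ≠ 2) (hpn : p ≤ n) {w : F}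
    (hw : w ^ (p ^ k) = 1) (hwq : w ^ (q + 1) = 1)
    (hw1 : w ≠ 1) (hn : 4 ≤ n ∨ w ^ 3 ≠ 1) : ¬ AbSylow p (PSU n F q) := by
  refine not_ab_quot (K := SU n F q) ((slToMat n F).comp (SU n F q).subtype) ?_ ?_ (w := w) ?_ hn3 hp hp2 hpn hw hw1 hn
  · intro a b h
    exact Subtype.ext (Subtype.ext h)
  · intro σ hσ
    exact ⟨suPerm q σ hσ, rfl⟩
  · intro v hv hv'
    refine ⟨suDiag q v hv' (fun i => ?_), rfl⟩
    rcases hv i with h | h | h
    · rw [h, one_pow]
    · rw [h, hwq]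
    · rw [h, inv_pow, hwq, inv_one]

variable [Fintype F]

theorem card_psu3 {q : ℕ} (hF : Fintype.card F = q ^ 2) : Nat.gcd 3 (q + 1) * Nat.card (PSU 3 F q) =
    q ^ 3 * ((q ^ 2 - 1) * (q ^ 3 + 1)) := by
  have h := ThreeList.card_psu (F := F) (n := 3) hF (by norm_num)
  rw [show 3 - 1 = 2 by rfl, Finset.prod_range_succ, Finset.prod_range_one] at h
  norm_num at h
  exact h

theorem not27u {q : ℕ} (hF : Fintype.card F = q ^ 2) (h9 : q % 9 = 2 ∨ q % 9 = 5) :
    ¬ 27 ∣ Nat.card (PSU 3 F q) := by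
  intro h
  have hc := card_psu3 (F := F) hF
  have hg : Nat.gcd 3 (q + 1) = 3 := Nat.gcd_eq_left (by omega)
  rw [hg] at hc
  have h81 : 81 ∣ q ^ 3 * ((q ^ 2 - 1) * (q ^ 3 + 1)) := by
    rw [← hc]
    exact mul_dvd_mul (show 3 ∣ 3 by norm_num) h
  have h1 : ((q ^ 3 * ((q ^ 2 - 1) * (q ^ 3 + 1)) : ℕ) : ZMod 81) = 0 := (ZMod.natCast_eq_zero_iff _ _).2 h81
  rw [Nat.cast_mul, Nat.cast_mul, Nat.cast_sub (Nat.one_le_pow _ _ (by omega)), Nat.cast_add,
    Nat.cast_pow, Nat.cast_pow, Nat.cast_one] at h1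
  have h2 : ∀ x : ZMod 81, (x.val % 9 = 2 ∨ x.val % 9 = 5) → x ^ 3 * ((x ^ 2 - 1) * (x ^ 3 + 1)) ≠ 0 := by decide
  refine h2 (q : ZMod 81) ?_ h1
  rw [ZMod.val_natCast, Nat.mod_mod_of_dvd _ (by norm_num : 9 ∣ 81)]
  exact h9

/-- the number of solutions of the equations of the centralizer -/
theorem card_triples (q : ℕ) : Nat.card {x : F × F × F // x.1 ^ (q + 1) + x.2.1 ^ (q + 1) = 1 ∧ x.2.2 ^ (q + 1) = 1} ≤
    Fintype.card F * ((q + 1) * (q + 1)) := by
  classical
  have hN : ∀ c : F, (Finset.univ.filter (fun b : F => b ^ (q + 1) = c)).card ≤ q + 1 := by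
    intro c
    refine le_trans ?_ (Polynomial.card_nthRoots (q + 1) c)
    refine le_trans (Finset.card_le_card ?_) (Multiset.toFinset_card_le _)
    intro b hb
    rw [Multiset.mem_toFinset, Polynomial.mem_nthRoots (by omega)]
    exact (Finset.mem_filter.1 hb).2
  rw [Nat.card_eq_fintype_card, Fintype.card_subtype]
  refine le_trans (Finset.card_le_card (t := (Finset.univ : Finset F).biUnion (fun α =>
    ((Finset.univ.filter (fun b : F => b ^ (q + 1) = 1 - α ^ (q + 1))) ×ˢ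
      (Finset.univ.filter (fun b : F => b ^ (q + 1) = 1))).image (fun p => (α, p.1, p.2)))) ?_) ?_
  · rintro ⟨a, b, c⟩ h
    simp only [Finset.mem_filter, Finset.mem_univ, true_and] at h
    simp only [Finset.mem_biUnion, Finset.mem_image, Finset.mem_product, Finset.mem_filter, Finset.mem_univ,
      true_and]
    exact ⟨a, (b, c), ⟨by linear_combination h.1, h.2⟩, rfl⟩
  · refine le_trans (Finset.card_biUnion_le_card_mul _ _ ((q + 1) * (q + 1)) fun α _ => ?_) ?_
    · refine le_trans Finset.card_image_le ?_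
      rw [Finset.card_product]
      exact Nat.mul_le_mul (hN _) (hN _)
    · rw [Finset.card_univ]

theorem cent_block {q : ℕ} (hF : Fintype.card F = q ^ 2) {t g : SU 3 F q} {a b : F} (ht : mat t = diagonal ![a, a, b])
    (ha : a ≠ 0) (hab : a ≠ b)
    (h : (QuotientGroup.mk g : PSU 3 F q) * QuotientGroup.mk t = QuotientGroup.mk t * QuotientGroup.mk g) :
    mat g 0 2 = 0 ∧ mat g 1 2 = 0 ∧ mat g 2 0 = 0 ∧ mat g 2 1 = 0 := by
  have h1 : (g * t)⁻¹ * (t * g) ∈ Subgroup.center (SU 3 F q) := by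
    rw [← QuotientGroup.eq]
    exact h
  rw [mem_center_SU_iff hF (le_refl 3)] at h1
  obtain ⟨c, hcn, hcq, hz⟩ := h1
  have hc0 : c ≠ 0 := by
    rintro rfl
    rw [zero_pow (by norm_num)] at hcn
    exact zero_ne_one hcn
  have h2 : mat t * mat g = mat g * mat t * diagonal (fun _ => c) := by
    have : t * g = g * t * ((g * t)⁻¹ * (t * g)) := by group
    rw [hz] at this
    have h3 := congrArg mat this
    rw [mat_mul, mat_mul, mat_mul] at h3
    exact h3
  rw [ht] at h2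
  have e : ∀ i j, (![a, a, b] : Fin 3 → F) i * mat g i j = mat g i j * (![a, a, b] : Fin 3 → F) j * c := by
    intro i j
    have := congrFun (congrFun h2 i) j
    rwa [diagonal_mul, mul_diagonal, mul_diagonal] at this
  have e00 := e 0 0
  have e01 := e 0 1
  have e02 := e 0 2
  have e10 := e 1 0
  have e11 := e 1 1
  have e12 := e 1 2
  have e20 := e 2 0
  have e21 := e 2 1
  simp only [cons_val_zero, cons_val_one, cons_val] at e00 e01 e02 e10 e11 e12 e20 e21
  have hc1 : c = 1 := by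
    by_contra hc1
    have hz : ∀ x : F, a * x = x * a * c → x = 0 := by
      intro x hx
      have h3 : a * x * (1 - c) = 0 := by linear_combination hx
      rcases mul_eq_zero.1 h3 with h4 | h4
      · exact (mul_eq_zero.1 h4).resolve_left ha
      · exact absurd (sub_eq_zero.1 h4).symm hc1
    have h3 := hz _ e00
    have h4 := hz _ e01
    have h5 := hz _ e10
    have h6 := hz _ e11
    have hdet := det_mat g
    rw [det_fin_three, h3, h4, h5, h6] at hdet
    simp at hdet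
  rw [hc1] at e02 e12 e20 e21
  have hz : ∀ x : F, (a - b) * x = 0 → x = 0 := fun x hx =>
    (mul_eq_zero.1 hx).resolve_left (sub_ne_zero.2 hab)
  exact ⟨hz _ (by linear_combination e02), hz _ (by linear_combination e12), hz _ (by linear_combination -e20),
    hz _ (by linear_combination -e21)⟩

/-- the columns are orthonormal -/
theorem col {q : ℕ} (g : SU 3 F q) (hq : q ≠ 0) (i j : Fin 3) :
    mat g 0 i * mat g 0 j ^ q + mat g 1 i * mat g 1 j ^ q + mat g 2 i * mat g 2 j ^ q = if i = j then 1 else 0 := by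
  have h := herm_act g (Pi.single i 1) (Pi.single j 1)
  rw [act_def, act_def] at h
  simp only [hermForm, Fin.sum_univ_three, Matrix.mulVec_single_one, Matrix.col_apply] at h
  rw [h]
  fin_cases i <;> fin_cases j <;> simp [hq]

theorem block_eq {q : ℕ} (hq : q ≠ 0) {g : SU 3 F q}
    (h : mat g 0 2 = 0 ∧ mat g 1 2 = 0 ∧ mat g 2 0 = 0 ∧ mat g 2 1 = 0) :
    (mat g 0 0 ^ (q + 1) + mat g 1 0 ^ (q + 1) = 1 ∧ mat g 2 2 ^ (q + 1) = 1) ∧
    mat g 1 1 * mat g 2 2 = mat g 0 0 ^ q ∧ mat g 0 1 * mat g 2 2 = - mat g 1 0 ^ q := by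
  obtain ⟨h02, h12, h20, h21⟩ := h
  have c00 := col g hq 0 0
  have c10 := col g hq 1 0
  have c22 := col g hq 2 2
  simp only [h02, h12, h20, h21, zero_pow hq, mul_zero, zero_mul, add_zero, zero_add, if_true] at c00 c10 c22
  rw [if_neg (by decide)] at c10
  have hdet := det_mat g
  rw [det_fin_three, h02, h12, h20, h21] at hdet
  simp only [mul_zero, zero_mul, add_zero, sub_zero, zero_add] at hdet
  refine ⟨⟨by rw [pow_succ', pow_succ']; exact c00, by rw [pow_succ']; exact c22⟩, ?_, ?_⟩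
  · linear_combination (mat g 1 1 * mat g 2 2) * (-c00) + mat g 0 0 ^ q * hdet + mat g 1 0 * mat g 2 2 * c10
  · linear_combination (mat g 0 1 * mat g 2 2) * (-c00) - mat g 1 0 ^ q * hdet + mat g 0 0 * mat g 2 2 * c10

theorem big_psu3 {q : ℕ} (hF : Fintype.card F = q ^ 2) (hq2 : q ≠ 2) (h9 : q % 9 = 2 ∨ q % 9 = 5) :
    BigClass 3 (PSU 3 F q) := by
  classical
  have hq5 : 5 ≤ q := by omega
  have hq0 : q ≠ 0 := by omega
  -- the prime `r`
  obtain ⟨r, hrp, hr⟩ : ∃ r : ℕ, r.Prime ∧ r ∣ (q + 1) / 3 := Nat.exists_prime_and_dvd (by omega)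
  have hrq : r ∣ q + 1 := hr.trans (Nat.div_dvd_of_dvd (by omega))
  have hr3 : r ≠ 3 := by
    rintro rfl
    omega
  obtain ⟨a, ha⟩ : ∃ a : F, orderOf a = r := by
    apply exists_order
    rw [hF, show q ^ 2 - 1 = (q + 1) * (q - 1) by rw [← Nat.sq_sub_sq, one_pow]]
    exact Dvd.dvd.mul_right hrq _
  have har : a ^ r = 1 := by rw [← ha]; exact pow_orderOf_eq_one a
  have haq : a ^ (q + 1) = 1 := by
    obtain ⟨m, hm⟩ := hrq
    rw [hm, pow_mul, har, one_pow]
  have ha0 : a ≠ 0 := by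
    rintro rfl
    rw [zero_pow hrp.ne_zero] at har
    exact zero_ne_one har
  have ha3 : a ^ 3 ≠ 1 := by
    intro h
    have h1 := orderOf_dvd_of_pow_eq_one h
    rw [ha] at h1
    exact hr3 ((Nat.prime_dvd_prime_iff_eq hrp Nat.prime_three).1 h1)
  have hab : a ≠ (a ^ 2)⁻¹ := by
    intro h
    apply ha3
    rw [pow_succ']
    nth_rewrite 1 [h]
    exact inv_mul_cancel₀ (pow_ne_zero 2 ha0)
  have hprod : ∏ i, (![a, a, (a ^ 2)⁻¹] : Fin 3 → F) i = 1 := by
    simp only [Fin.prod_univ_three, cons_val_zero, cons_val_one, cons_val]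
    rw [← pow_two]
    exact mul_inv_cancel₀ (pow_ne_zero 2 ha0)
  have hnorm : ∀ i, (![a, a, (a ^ 2)⁻¹] : Fin 3 → F) i ^ (q + 1) = 1 := by
    intro i
    fin_cases i
    · exact haq
    · exact haq
    · show ((a ^ 2)⁻¹) ^ (q + 1) = 1
      rw [inv_pow, ← pow_mul, mul_comm, pow_mul, haq, one_pow, inv_one]
  set t : SU 3 F q := suDiag q ![a, a, (a ^ 2)⁻¹] hprod hnorm with ht
  have hmt : mat t = diagonal ![a, a, (a ^ 2)⁻¹] := rfl
  have htr : t ^ r = 1 := by
    apply mat_injective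
    have h1 : ∀ m : ℕ, mat (t ^ m) = mat t ^ m := by
      intro m
      induction m with
      | zero => simp [mat_one]
      | succ m ih => rw [pow_succ, mat_mul, ih, pow_succ]
    rw [h1, hmt, diagonal_pow, mat_one, ← diagonal_one]
    congr 1
    funext i
    fin_cases i
    · exact har
    · exact har
    · show ((a ^ 2)⁻¹) ^ r = 1
      rw [inv_pow, ← pow_mul, mul_comm, pow_mul, har, one_pow, inv_one]
  have hx1 : (QuotientGroup.mk t : PSU 3 F q) ≠ 1 := by
    intro h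
    rw [QuotientGroup.eq_one_iff] at h
    have h1 := diag_eq (le_refl 3) h 0 2
    exact hab h1
  have hxo : orderOf (QuotientGroup.mk t : PSU 3 F q) = r ^ 1 := by
    rw [pow_one]
    exact orderOf_eq_prime (by
      rw [← QuotientGroup.mk_pow, htr]
      rfl) hx1 (hp := ⟨hrp⟩)
  have hcard : Nat.card ↥(Subgroup.centralizer ({(QuotientGroup.mk t : PSU 3 F q)} : Set (PSU 3 F q))) ≤
      Fintype.card F * ((q + 1) * (q + 1)) := by
    refine le_trans ?_ (card_triples (F := F) q)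
    have hy : ∀ y : ↥(Subgroup.centralizer ({(QuotientGroup.mk t : PSU 3 F q)} : Set (PSU 3 F q))),
        mat (Quotient.out y.1) 0 2 = 0 ∧ mat (Quotient.out y.1) 1 2 = 0 ∧ mat (Quotient.out y.1) 2 0 = 0 ∧
          mat (Quotient.out y.1) 2 1 = 0 := by
      intro y
      apply cent_block hF hmt ha0 hab
      have h2 : (QuotientGroup.mk (Quotient.out y.1) : PSU 3 F q) = y.1 := Quotient.out_eq y.1
      rw [h2]
      exact Subgroup.mem_centralizer_singleton_iff.1 y.2
    apply Nat.card_le_card_of_injective (fun y =>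
      (⟨(mat (Quotient.out y.1) 0 0, mat (Quotient.out y.1) 1 0, mat (Quotient.out y.1) 2 2),
        (block_eq hq0 (hy y)).1⟩ : {x : F × F × F // x.1 ^ (q + 1) + x.2.1 ^ (q + 1) = 1 ∧ x.2.2 ^ (q + 1) = 1}))
    intro y y' h
    have h1 := congrArg Subtype.val h
    simp only [Prod.mk.injEq] at h1
    obtain ⟨e00, e10, e22⟩ := h1
    have b := block_eq hq0 (hy y)
    have b' := block_eq hq0 (hy y')
    have h22 : mat (Quotient.out y.1) 2 2 ≠ 0 := by
      intro h0
      have := b.1.2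
      rw [h0, zero_pow (by omega)] at this
      exact zero_ne_one this
    have e11 : mat (Quotient.out y.1) 1 1 = mat (Quotient.out y'.1) 1 1 := by
      apply mul_right_cancel₀ h22
      rw [b.2.1, e22, b'.2.1, e00]
    have e01 : mat (Quotient.out y.1) 0 1 = mat (Quotient.out y'.1) 0 1 := by
      apply mul_right_cancel₀ h22
      rw [b.2.2, e22, b'.2.2, e10]
    have h2 : Quotient.out y.1 = Quotient.out y'.1 := by
      apply mat_injective
      ext i j
      fin_cases i <;> fin_cases j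
      · exact e00
      · exact e01
      · exact (hy y).1.trans (hy y').1.symm
      · exact e10
      · exact e11
      · exact (hy y).2.1.trans (hy y').2.1.symm
      · exact (hy y).2.2.1.trans (hy y').2.2.1.symm
      · exact (hy y).2.2.2.trans (hy y').2.2.2.symm
      · exact e22
    have h5 : (QuotientGroup.mk (Quotient.out y.1) : PSU 3 F q) = y.1 := Quotient.out_eq y.1
    have h6 : (QuotientGroup.mk (Quotient.out y'.1) : PSU 3 F q) = y'.1 := Quotient.out_eq y'.1
    apply Subtype.ext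
    rw [← h5, ← h6, h2]
  refine BigClass.mk' hrp hr3 hx1 hxo (three_le (not27u hF h9)) hcard le_rfl ?_
  have hc := card_psu3 (F := F) hF
  have hg : Nat.gcd 3 (q + 1) = 3 := Nat.gcd_eq_left (by omega)
  rw [hg] at hc
  rw [hF]
  have h3 : 3 * (9 ^ 2 * (q ^ 2 * ((q + 1) * (q + 1)))) < 3 * Nat.card (PSU 3 F q) := by
    rw [hc]
    obtain ⟨s, rfl⟩ : ∃ s, q = s + 5 := ⟨q - 5, by omega⟩
    have e1 : (s + 5) ^ 2 - 1 = (s + 6) * (s + 4) := by
      have : (s + 5) ^ 2 = (s + 6) * (s + 4) + 1 := by ring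
      omega
    have e2 : (s + 5) ^ 3 + 1 = (s + 6) * ((s + 5) * (s + 4) + 1) := by ring
    rw [e1, e2]
    have h4 : 3 * (9 ^ 2 * ((s + 5) ^ 2 * ((s + 5 + 1) * (s + 5 + 1)))) =
        ((s + 5) ^ 2 * ((s + 6) * (s + 6))) * 243 := by ring
    have h5 : (s + 5) ^ 3 * ((s + 6) * (s + 4) * ((s + 6) * ((s + 5) * (s + 4) + 1))) =
        ((s + 5) ^ 2 * ((s + 6) * (s + 6))) * ((s + 5) * (s + 4) * ((s + 5) * (s + 4) + 1)) := by ring
    rw [h4, h5]
    apply Nat.mul_lt_mul_of_pos_left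
    · have h6 : 5 * 4 ≤ (s + 5) * (s + 4) := Nat.mul_le_mul (by omega) (by omega)
      have h7 : 20 * 21 ≤ (s + 5) * (s + 4) * ((s + 5) * (s + 4) + 1) := Nat.mul_le_mul (by omega) (by omega)
      omega
    · positivity
  omega

theorem psu_row {n q : ℕ} (hF : Fintype.card F = q ^ 2) (hn : 3 ≤ n) (h32 : ¬ (n = 3 ∧ q = 2)) :
    Cfsg.Agent.H726.Rel.OddRow (Cfsg.PSU n F q) (Nat.gcd n (q + 1)) := by
  intro p hp hp2 hpm hab
  have hpn : p ∣ n := hpm.trans (Nat.gcd_dvd_left _ _)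
  have hpq : p ∣ q + 1 := hpm.trans (Nat.gcd_dvd_right _ _)
  have hle : p ≤ n := Nat.le_of_dvd (by omega) hpn
  have hex : ∀ r, r ∣ q + 1 → ∃ w : F, orderOf w = r := by
    intro r hr
    apply exists_order
    rw [hF, show q ^ 2 - 1 = (q + 1) * (q - 1) by rw [← Nat.sq_sub_sq, one_pow]]
    exact Dvd.dvd.mul_right hr _
  have hqw : ∀ (r : ℕ) (w : F), r ∣ q + 1 → orderOf w = r → w ^ (q + 1) = 1 := by
    rintro r w ⟨m, hm⟩ h
    rw [hm, pow_mul, ← h, pow_orderOf_eq_one, one_pow]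
  obtain ⟨w, hw⟩ := hex p hpq
  have hw1 : w ≠ 1 := by
    rintro rfl
    rw [orderOf_one] at hw
    exact hp.one_lt.ne hw
  have hn3 : n = 3 := by
    by_contra hne
    exact not_ab_psu (k := 1) hn hp hp2 hle (by rw [pow_one, ← hw]; exact pow_orderOf_eq_one w) (hqw p w hpq hw) hw1
      (Or.inl (by omega)) hab
  subst hn3
  have hp3 : p = 3 := (Nat.prime_dvd_prime_iff_eq hp Nat.prime_three).1 hpn
  subst hp3
  refine ⟨rfl, big_psu3 hF (fun h => h32 ⟨rfl, h⟩) ?_⟩
  have h9 : ¬ 9 ∣ q + 1 := by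
    intro h9
    obtain ⟨w, hw⟩ := hex 9 h9
    have hw1 : w ≠ 1 := by
      rintro rfl
      rw [orderOf_one] at hw
      omega
    refine not_ab_psu (k := 2) hn hp hp2 hle (w := w) (by
      rw [show 3 ^ 2 = 9 by norm_num, ← hw]
      exact pow_orderOf_eq_one w) (hqw 9 w h9 hw) hw1 (Or.inr ?_) hab
    intro h
    have := orderOf_dvd_of_pow_eq_one h
    rw [hw] at this
    exact absurd (Nat.le_of_dvd (by norm_num) this) (by norm_num)
  omega

end Cfsg.Agent.H341.Rel
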